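import Cfsg.Agent.Blocks.ThreePrimeSmall.Tools
import Cfsg.Agent.Screen.KleinOrder
import Cfsg.Agent.S4500
import Cfsg.Agent.S0165
import Cfsg.Agent.Blocks.InvolutionSum

/-!
Simple groups of order `4 p^a q^b` with `a ≤ 2`: the order formula of the principal 2-block
against a character of degree four.
-/

set_option autoImplicit false
set_option linter.style.haveILetI false
set_option linter.unusedSectionVars false

namespace Cfsg.Agent.Blocks.ThreePrimeSmall

open Cfsg Cfsg.Agent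
open scoped ComplexConjugate

universe u

theorem dioph_fin : ∀ k : Fin 6, ∀ l : Fin 3, ∀ k' : Fin 6, ∀ l' : Fin 3,
    (3 ^ k.val * 7 ^ l.val) % 4 = 3 → 3 ^ k'.val * 7 ^ l'.val = 3 ^ k.val * 7 ^ l.val + 6 →
      3 ^ k.val * 7 ^ l.val = 3 := by
  decide +kernel

/-- Two divisors of `3^i 7^j` differing by six. -/
theorem dioph {i j x y : ℕ} (hij : i ≤ 2 ∨ j ≤ 2) (hx : x ∣ 3 ^ i * 7 ^ j)
    (hy : y ∣ 3 ^ i * 7 ^ j) (hy4 : y % 4 = 3) (hxy : x = y + 6) : y = 3 := by
  have h7 : Nat.Prime 7 := by norm_num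
  obtain ⟨y₁, y₂, hy₁, hy₂, rfl⟩ := Nat.dvd_mul.1 hy
  obtain ⟨x₁, x₂, hx₁, hx₂, rfl⟩ := Nat.dvd_mul.1 hx
  obtain ⟨k, hk, rfl⟩ := (Nat.dvd_prime_pow Nat.prime_three).1 hy₁
  obtain ⟨k', hk', rfl⟩ := (Nat.dvd_prime_pow Nat.prime_three).1 hx₁
  obtain ⟨l, hl, rfl⟩ := (Nat.dvd_prime_pow h7).1 hy₂
  obtain ⟨l', hl', rfl⟩ := (Nat.dvd_prime_pow h7).1 hx₂
  have hl0 : l = 0 ∨ l' = 0 := by
    by_contra h
    push Not at h
    have h1 : 7 ∣ 3 ^ k * 7 ^ l := (dvd_pow_self 7 h.1).mul_left _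
    have h2 : 7 ∣ 3 ^ k' * 7 ^ l' := (dvd_pow_self 7 h.2).mul_left _
    omega
  have hk0 : k ≤ 1 ∨ k' ≤ 1 := by
    by_contra h
    push Not at h
    have h1 : 9 ∣ 3 ^ k * 7 ^ l := (pow_dvd_pow 3 (show 2 ≤ k by omega)).mul_right _
    have h2 : 9 ∣ 3 ^ k' * 7 ^ l' := (pow_dvd_pow 3 (show 2 ≤ k' by omega)).mul_right _
    omega
  have b3 : ∀ {u : ℕ}, u ≤ 2 → 3 ^ u ≤ 9 := fun h => Nat.pow_le_pow_right (by norm_num) h
  have b7 : ∀ {u : ℕ}, u ≤ 2 → 7 ^ u ≤ 49 := fun h => Nat.pow_le_pow_right (by norm_num) h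
  have b1 : ∀ {u : ℕ}, u ≤ 1 → 3 ^ u ≤ 3 := fun h =>
    (Nat.pow_le_pow_right (show 0 < 3 by norm_num) h).trans (by norm_num)
  have hsmall : 3 ^ k * 7 ^ l ≤ 153 := by
    rcases hij with hi | hj
    · rcases hl0 with rfl | rfl
      · have := b3 (hk.trans hi)
        simp only [pow_zero, mul_one]; omega
      · have := b3 (hk'.trans hi)
        simp only [pow_zero, mul_one] at hxy
        omega
    · rcases hk0 with h | h
      · have := Nat.mul_le_mul (b1 h) (b7 (hl.trans hj))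
        omega
      · have := Nat.mul_le_mul (b1 h) (b7 (hl'.trans hj))
        omega
  have bound3 : ∀ {u w : ℕ}, 3 ^ u * 7 ^ w ≤ 159 → u < 6 ∧ w < 3 := by
    intro u w h
    constructor
    · by_contra hu
      have h1 := Nat.pow_le_pow_right (show 0 < 3 by norm_num) (show 6 ≤ u by omega)
      have h2 := Nat.le_mul_of_pos_right (3 ^ u) (show 0 < 7 ^ w by positivity)
      norm_num at h1
      omega
    · by_contra hw
      have h1 := Nat.pow_le_pow_right (show 0 < 7 by norm_num) (show 3 ≤ w by omega)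
      have h2 := Nat.le_mul_of_pos_left (7 ^ w) (show 0 < 3 ^ u by positivity)
      norm_num at h1
      omega
  obtain ⟨hk6, hl3⟩ := bound3 (show 3 ^ k * 7 ^ l ≤ 159 by omega)
  obtain ⟨hk6', hl3'⟩ := bound3 (show 3 ^ k' * 7 ^ l' ≤ 159 by omega)
  exact dioph_fin ⟨k, hk6⟩ ⟨l, hl3⟩ ⟨k', hk6'⟩ ⟨l', hl3'⟩ hy4 hxy

/-- The relation between the degrees forces a factor three. -/
theorem false_mod_three {X Y Z va vb : ℤ} (hva : va = 1 ∨ va = -1) (hvb : vb = 1 ∨ vb = -1)
    (hX : X % 3 ≠ 0) (hY : Y % 3 ≠ 0) (hZ : Z % 3 ≠ 0) (ha : ¬ 3 ∣ X + va) (hb : ¬ 3 ∣ Y + vb)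
    (hc : ¬ 3 ∣ Z - 1) (hlin : 1 + va * X + vb * Y - Z = 0) : False := by
  rcases hva with rfl | rfl <;> rcases hvb with rfl | rfl <;> omega

/-- The last count. -/
theorem final_arith {g y : ℤ} (hy : 7 ≤ y)
    (h : g * ((y + 3) * (y - 1)) = 12 * (y * (y + 2))) : False := by
  have hp : 0 ≤ (y + 3) * (y - 1) := mul_nonneg (by omega) (by omega)
  rcases le_or_gt g 12 with hle | hgt
  · nlinarith [mul_le_mul_of_nonneg_right hle hp]
  · have hge : 13 ≤ g := by omega
    nlinarith [mul_le_mul_of_nonneg_right hge hp]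

variable {G : Type u} [Group G] [Fintype G]

/-- Principal block characters are constant on the elements of even order. -/
theorem singular_value {M : Ideal AlgInt} [M.IsMaximal] (h2M : ((2 : ℕ) : AlgInt) ∈ M)
    (P : Sylow 2 G) (hP : Nat.card P = 4) (hexp : ∀ y : P, y * y = 1)
    (hone : ∀ s t : G, orderOf s = 2 → orderOf t = 2 → IsConj s t) {J : G}
    (hJP : J ∈ (P : Subgroup G)) (hJ : orderOf J = 2) (χ : IrrCharacter G)
    (hχ : χ ∈ principalBlock M G) {g : G} (hg : 2 ∣ orderOf g) :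
    (χ : G → ℂ) g = (χ : G → ℂ) J := by
  classical
  haveI : Fact (Nat.Prime 2) := ⟨Nat.prime_two⟩
  set C := Subgroup.centralizer ({J} : Set G) with hC
  letI : Fintype C := Fintype.ofFinite _
  have hPsq : ∀ a ∈ (P : Subgroup G), a * a = 1 := fun a ha => congrArg Subtype.val (hexp ⟨a, ha⟩)
  have hinv : ∀ {a : G}, a * a = 1 → a⁻¹ = a := fun h => inv_eq_of_mul_eq_one_right h
  have hPC : (P : Subgroup G) ≤ C := fun a ha => Subgroup.mem_centralizer_singleton_iff.2 (by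
    rw [← hinv (hPsq _ ((P : Subgroup G).mul_mem ha hJP)), mul_inv_rev, hinv (hPsq a ha),
      hinv (hPsq J hJP)])
  let Q : Sylow 2 C := P.subtype hPC
  have hQc : Nat.card Q = 4 := by
    rw [← hP]; exact Nat.card_congr (Subgroup.subgroupOfEquivOfLe hPC).toEquiv
  have hJ1 : J ≠ 1 := fun h => by rw [h, orderOf_one] at hJ; omega
  obtain ⟨N, hNn, hNodd, hNidx⟩ := Chars2.exists_complement_of_central Q hQc
    (fun x hx => Subtype.ext (hPsq _ hx)) ⟨J, hPC hJP⟩ hJP
    (fun h => hJ1 (congrArg Subtype.val h))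
    (fun g => Subtype.ext (Subgroup.mem_centralizer_singleton_iff.1 g.2))
  haveI := hNn
  obtain ⟨z, hz, hgz, hodd, -⟩ := Screen.KleinOrder.existsUnique_part P hexp hg
  obtain ⟨k, hk⟩ := isConj_iff.1 (hone z J hz hJ)
  set w := k * (g * z) * k⁻¹ with hw
  have hzz : z * z = 1 := by rw [← pow_two, ← hz, pow_orderOf_eq_one]
  have hwC : w ∈ C := by
    rw [hC, Subgroup.mem_centralizer_singleton_iff, ← hk, hw]
    calc k * (g * z) * k⁻¹ * (k * z * k⁻¹) = k * ((g * z) * z) * k⁻¹ := by group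
      _ = k * (z * (g * z)) * k⁻¹ := by rw [← mul_assoc z g z, ← hgz.eq]
      _ = k * z * k⁻¹ * (k * (g * z) * k⁻¹) := by group
  have hwo : Odd (orderOf (⟨w, hwC⟩ : C)) := by
    rw [Subgroup.orderOf_mk, show orderOf w = orderOf (g * z) from
      orderOf_injective (MulAut.conj k).toMonoidHom (MulAut.conj k).injective _]
    exact hodd
  have hcore : w ∈ centralizerPPrimeCore 2 J := by
    have h1 := orderOf_map_dvd (QuotientGroup.mk' N) (⟨w, hwC⟩ : C)
    have h2 : orderOf (QuotientGroup.mk' N (⟨w, hwC⟩ : C)) ∣ 2 ^ 2 :=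
      hNidx ▸ orderOf_dvd_natCard _
    have h3 : orderOf (QuotientGroup.mk' N (⟨w, hwC⟩ : C)) = 1 :=
      Nat.eq_one_of_dvd_coprimes ((Nat.coprime_two_right.2 hwo).pow_right 2) h1 h2
    refine Subgroup.mem_map.2 ⟨⟨w, hwC⟩, ?_, rfl⟩
    exact Core.le_pPrimeCore hNn
      (Nat.Prime.coprime_iff_not_dvd Nat.prime_two |>.2 hNodd).symm
      ((QuotientGroup.eq_one_iff (⟨w, hwC⟩ : C)).1 (orderOf_eq_one_iff.1 h3))
  have hgw : k * g * k⁻¹ = J * w := by
    rw [← hk, hw]
    calc k * g * k⁻¹ = k * (g * (z * z)) * k⁻¹ := by rw [hzz, mul_one]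
      _ = k * ((g * z) * z) * k⁻¹ := by group
      _ = k * (z * (g * z)) * k⁻¹ := by rw [← mul_assoc z g z, ← hgz.eq]
      _ = k * z * k⁻¹ * (k * (g * z) * k⁻¹) := by group
  rw [← Chars.isClassFunction_irr χ g k, hgw]
  exact Blocks.apply_mul_centralizerPPrimeCore h2M ⟨1, by rw [hJ, pow_one]⟩ hcore hχ

variable [IsSimpleGroup G]

/-- A character of degree three with value `-1` at every element of even order forces the
centralizer of an involution to have order four. -/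
theorem card_centralizer_four (hna : ¬ IsMulCommutative G) (P : Sylow 2 G) (hP : Nat.card P = 4)
    (hexp : ∀ y : P, y * y = 1) {J : G} (hJP : J ∈ (P : Subgroup G)) (hJ : orderOf J = 2)
    (ψ : IrrCharacter G) (hψ : charDegree (ψ : G → ℂ) = 3)
    (hsing : ∀ g : G, 2 ∣ orderOf g → (ψ : G → ℂ) g = -1) :
    Nat.card (Subgroup.centralizer ({J} : Set G)) = 4 := by
  classical
  haveI : Fact (Nat.Prime 2) := ⟨Nat.prime_two⟩
  set C := Subgroup.centralizer ({J} : Set G) with hC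
  letI : Fintype C := Fintype.ofFinite _
  have hPsq : ∀ a ∈ (P : Subgroup G), a * a = 1 := fun a ha => congrArg Subtype.val (hexp ⟨a, ha⟩)
  have hinv : ∀ {a : G}, a * a = 1 → a⁻¹ = a := fun h => inv_eq_of_mul_eq_one_right h
  have hPC : (P : Subgroup G) ≤ C := fun a ha => Subgroup.mem_centralizer_singleton_iff.2 (by
    rw [← hinv (hPsq _ ((P : Subgroup G).mul_mem ha hJP)), mul_inv_rev, hinv (hPsq a ha),
      hinv (hPsq J hJP)])
  let Q : Sylow 2 C := P.subtype hPC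
  have hQc : Nat.card Q = 4 := by
    rw [← hP]; exact Nat.card_congr (Subgroup.subgroupOfEquivOfLe hPC).toEquiv
  have hJ1 : J ≠ 1 := fun h => by rw [h, orderOf_one] at hJ; omega
  obtain ⟨N, hNn, -, hNidx⟩ := Chars2.exists_complement_of_central Q hQc
    (fun x hx => Subtype.ext (hPsq _ hx)) ⟨J, hPC hJP⟩ hJP
    (fun h => hJ1 (congrArg Subtype.val h))
    (fun g => Subtype.ext (Subgroup.mem_centralizer_singleton_iff.1 g.2))
  haveI := hNn
  obtain ⟨m, hm⟩ := Chars.exists_classInner_eq_nat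
    (Chars.isCharacter_restrict (Chars.irr_isCharacter ψ) C) (Chars.isCharacter_one (G := C))
  rw [Chars.classInner_def] at hm
  simp only [map_one, mul_one] at hm
  rw [inv_mul_eq_iff_eq_mul₀ (Nat.cast_ne_zero.2 Nat.card_pos.ne')] at hm
  have hout : ∀ w : C, w ∉ N → (ψ : G → ℂ) w = -1 := fun w hw => hsing _ (by
    by_contra hev
    apply hw
    have hwo : Odd (orderOf w) := by
      rw [← Subgroup.orderOf_coe, Nat.odd_iff]; omega
    have h1 := orderOf_map_dvd (QuotientGroup.mk' N) w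
    have h2 : orderOf (QuotientGroup.mk' N w) ∣ 2 ^ 2 := hNidx ▸ orderOf_dvd_natCard _
    exact (QuotientGroup.eq_one_iff w).1 (orderOf_eq_one_iff.1
      (Nat.eq_one_of_dvd_coprimes ((Nat.coprime_two_right.2 hwo).pow_right 2) h1 h2)))
  set A := Finset.univ.filter fun w : C => w ∈ N with hA
  have hAc : A.card = Nat.card N := by
    rw [hA, Nat.card_eq_fintype_card, Fintype.card_subtype]
  have hC4 : Nat.card C = 4 * Nat.card N := by
    have h1 := N.card_mul_index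
    rw [show N.index = 4 from hNidx] at h1
    omega
  rw [← Finset.sum_filter_add_sum_filter_not Finset.univ (fun w : C => w ∈ N),
    Finset.sum_congr rfl (fun w hw => hout w (Finset.mem_filter.1 hw).2), Finset.sum_const,
    Finset.filter_not, Finset.card_sdiff_of_subset (Finset.subset_univ _), Finset.card_univ,
    ← Nat.card_eq_fintype_card, ← hA, hAc, hC4, nsmul_eq_mul,
    Nat.cast_sub (by omega)] at hm
  have hre : ∑ w ∈ A, ((ψ : G → ℂ) w).re = (4 * (m : ℝ) + 3) * (Nat.card N : ℝ) := by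
    have h := congrArg Complex.re hm
    simp only [Complex.add_re, Complex.re_sum, Complex.mul_re, Complex.neg_re, Complex.one_re,
      Complex.neg_im, Complex.one_im, Complex.natCast_re, Complex.natCast_im, Complex.sub_re,
      Complex.sub_im, Nat.cast_mul, Nat.cast_ofNat, Complex.re_ofNat, Complex.im_ofNat,
      Complex.mul_im] at h
    linarith
  have hle : ∀ w ∈ A, ((ψ : G → ℂ) w).re ≤ 3 := fun w _ => by
    refine (Complex.re_le_norm _).trans ((Chars.norm_le_of_isCharacter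
      (Chars.irr_isCharacter ψ) _).trans ?_)
    rw [apply_one, hψ]
    norm_num
  have hall : ∀ w ∈ A, w = 1 := by
    intro w hw
    by_contra hne
    have hlt : ((ψ : G → ℂ) w).re < 3 := by
      refine lt_of_le_of_ne (hle w hw) fun h => hne (Subtype.ext ?_)
      refine eq_one_of_norm hna ψ (by omega) ?_
      refine le_antisymm ?_ ?_
      · refine (Chars.norm_le_of_isCharacter (Chars.irr_isCharacter ψ) _).trans ?_
        rw [apply_one, Complex.natCast_re]
      · rw [hψ, Nat.cast_ofNat, ← h]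
        exact Complex.re_le_norm _
    have h := Finset.sum_lt_sum (g := fun _ => (3 : ℝ)) hle ⟨w, hw, hlt⟩
    rw [hre, Finset.sum_const, hAc, nsmul_eq_mul] at h
    nlinarith [(Nat.cast_nonneg m : (0 : ℝ) ≤ m), (Nat.cast_nonneg (Nat.card N) : (0 : ℝ) ≤ _)]
  have hN1 : Nat.card N = 1 := by
    rw [← hAc]
    exact le_antisymm (Finset.card_le_one.2 fun u hu w hw => (hall u hu).trans (hall w hw).symm)
      (Finset.card_pos.2 ⟨1, Finset.mem_filter.2 ⟨Finset.mem_univ _, N.one_mem⟩⟩)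
  omega

set_option maxHeartbeats 800000 in
/-- A non-abelian simple group of order `4 p^a q^b` with `a ≤ 2` has order `60`. -/
theorem card_four (hna : ¬ IsMulCommutative G) {p q a b : ℕ} (hp : p.Prime) (hq : q.Prime)
    (hpq : p ≠ q) (ha : a ≤ 2) (hG : Nat.card G = 4 * p ^ a * q ^ b) : Nat.card G = 60 := by
  classical
  haveI : Fact (Nat.Prime 2) := ⟨Nat.prime_two⟩
  have hp2 : p ≠ 2 := by
    rintro rfl
    exact false_of_two_primes hna (a + 2) b Nat.prime_two hq (by rw [hG]; ring)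
  have hq2 : q ≠ 2 := by
    rintro rfl
    exact false_of_two_primes hna (b + 2) a Nat.prime_two hp (by rw [hG]; ring)
  set g₀ := p ^ a * q ^ b with hg₀def
  have hG0 : Nat.card G = 4 * g₀ := by rw [hG, hg₀def, mul_assoc]
  have hg₀ : Odd g₀ := ((hp.odd_of_ne_two hp2).pow).mul ((hq.odd_of_ne_two hq2).pow)
  obtain ⟨P⟩ := (inferInstance : Nonempty (Sylow 2 G))
  have hP : Nat.card P = 4 := by
    rw [Sylow.card_eq_multiplicity, hG0,
      Nat.factorization_mul (by norm_num) (fun h => by simp [h] at hg₀), Finsupp.add_apply,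
      show (4 : ℕ) = 2 ^ 2 by norm_num, Nat.Prime.factorization_pow Nat.prime_two,
      Finsupp.single_eq_same,
      Nat.factorization_eq_zero_of_not_dvd (by rw [Nat.odd_iff] at hg₀; omega)]
  have hnc : ¬ ∃ N : Subgroup G, N.Normal ∧ Nat.card N * 4 = Nat.card G := by
    rintro ⟨N, hN, hc⟩
    rcases hN.eq_bot_or_eq_top with rfl | rfl
    · rw [Subgroup.card_bot] at hc
      exact false_of_two_primes hna 2 0 Nat.prime_two hp (by rw [← hc]; norm_num)
    · rw [Subgroup.card_top] at hc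
      have := Nat.card_pos (α := G)
      omega
  obtain ⟨hexp, hone⟩ := Screen.KleinOrder.exp_and_one P hP hnc
  obtain ⟨M, hM, h2M⟩ := Blocks.exists_two_mem
  haveI := hM
  obtain ⟨S, v, hmem, hS4, honeS, hvone, hsign, hval, hmod, horth⟩ :=
    Blocks.klein_data (M := M) h2M P hP hexp hone
  obtain ⟨⟨J, hJP⟩, hJ⟩ := exists_prime_orderOf_dvd_card' 2 (G := (P : Subgroup G))
    (by rw [hP]; norm_num)
  rw [Subgroup.orderOf_mk] at hJ
  have hJ1 : J ≠ 1 := fun h => by rw [h, orderOf_one] at hJ; norm_num at hJ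
  obtain ⟨id1, -, -, -⟩ := Screen.KleinOrder.identities (M := M) h2M P hP hexp hone hJP hJ
  have hSB : Screen.KleinOrder.blockFinset (G := G) M = S := Finset.ext fun χ => by
    rw [Screen.KleinOrder.mem_blockFinset, hmem]
  rw [hSB] at id1
  have hsv : ∀ χ ∈ S, ∀ g : G, 2 ∣ orderOf g → (χ : G → ℂ) g = (v χ : ℂ) := fun χ hχ g hg => by
    rw [singular_value h2M P hP hexp hone hJP hJ χ ((hmem χ).1 hχ) hg, hval χ J hJ]
  -- a character of degree four
  haveI : Nontrivial G := IsSimpleGroup.toNontrivial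
  obtain ⟨χ, hχ1, k, hk⟩ := (S4500.result (G := G) p q 2 a b 2 hp hq Nat.prime_two hpq hp2 hq2 ha
    (by rw [hG]; ring)).2
  have hχne : χ ≠ Blocks.oneChar G := fun h => hχ1 (by rw [h]; rfl)
  have h2χ := deg_two_le hna χ hχne
  have hχ4 : charDegree (χ : G → ℂ) = 4 := by
    have hd := Blocks.charDegree_dvd χ.2
    rw [hk, hG0] at hd
    have hd' : 2 ^ k ∣ 4 :=
      (((Nat.coprime_two_left.2 hg₀).pow_left k)).dvd_of_dvd_mul_right hd
    have := Nat.le_of_dvd (by norm_num) hd'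
    rw [hk]
    rw [hk] at h2χ
    have hk3 : k < 3 := by
      by_contra h
      have := Nat.pow_le_pow_right (show 0 < 2 by norm_num) (show 3 ≤ k by omega)
      omega
    interval_cases k
    · norm_num at h2χ
    · exfalso
      have h := hmod χ
      rw [hk] at h
      obtain ⟨h1, h2⟩ := int_value_lt hna χ (by rw [hk]; norm_num) hJ1 (hval χ J hJ)
      rw [hk] at h1 h2
      obtain ⟨c, hc⟩ := h
      norm_num at h1 h2 hc
      omega
    · norm_num
  have hvan : ∀ g : G, 2 ∣ orderOf g → (χ : G → ℂ) g = 0 := by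
    intro g hg
    obtain ⟨n, ρ, hi, hρ⟩ := χ.2
    haveI := hi
    have hfin : Module.finrank ℂ (Fin n → ℂ) = 4 := by
      have h := apply_one χ
      rw [hχ4, ← hρ, Representation.char_one] at h
      exact_mod_cast h
    rw [← hρ]
    refine S0165.result ρ 2 2 Nat.prime_two (by rw [hG0]; exact dvd_mul_right _ _) ?_
      (by rw [hfin]; norm_num) g hg
    rw [hG0]
    rw [Nat.odd_iff] at hg₀
    omega
  obtain ⟨n, hn, hn1, hnle⟩ := exists_mult χ
  have hnrel : ∑ θ ∈ S, v θ * (n θ : ℤ) = 0 := by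
    refine Int.cast_injective (α := ℂ) ?_
    push_cast
    simp only [← hn, Chars.classInner_def, Finset.mul_sum]
    rw [Finset.sum_comm]
    refine Finset.sum_eq_zero fun y _ => ?_
    by_cases hy : 2 ∣ orderOf y
    · simp [hvan y hy]
    · have h := congrArg conj (horth y hy)
      simp only [map_sum, map_mul, map_intCast, map_zero] at h
      calc _ = (Nat.card G : ℂ)⁻¹ * ((χ : G → ℂ) y * conj ((χ : G → ℂ) y)) *
            ∑ θ ∈ S, (v θ : ℂ) * conj ((θ : G → ℂ) y) := by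
            rw [Finset.mul_sum]
            exact Finset.sum_congr rfl fun θ _ => by ring
        _ = 0 := by rw [h, mul_zero]
  obtain ⟨ζ, hζS, hvζ, hnζ⟩ : ∃ θ ∈ S, v θ = -1 ∧ 1 ≤ n θ := by
    by_contra hcon
    push Not at hcon
    have hpos : ∀ θ ∈ S, 0 ≤ v θ * (n θ : ℤ) := fun θ hθ => by
      rcases hsign θ hθ with h | h
      · simp [h]
      · have := hcon θ hθ h
        rw [show n θ = 0 by omega]; simp
    have h1 := Finset.single_le_sum (f := fun θ => v θ * (n θ : ℤ)) hpos honeS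
    simp only [hnrel, hvone, hn1] at h1
    norm_num at h1
  have hd1 : charDegree ((Blocks.oneChar G : IrrCharacter G) : G → ℂ) = 1 := by
    simp [charDegree, Blocks.coe_oneChar]
  set c := Nat.card (Subgroup.centralizer ({J} : Set G)) with hc
  set cp := Nat.card (Subgroup.centralizer ((P : Subgroup G) : Set G)) with hcp
  -- the relations for a negative member
  have key : ∀ θ ∈ S, v θ = -1 → ∃ θ₁ θ₂ : IrrCharacter G, θ₁ ∈ S ∧ θ₂ ∈ S ∧
      θ₁ ≠ Blocks.oneChar G ∧ θ₂ ≠ Blocks.oneChar G ∧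
      (1 : ℤ) + v θ₁ * charDegree (θ₁ : G → ℂ) + v θ₂ * charDegree (θ₂ : G → ℂ) -
        charDegree (θ : G → ℂ) = 0 ∧
      (cp : ℤ) ^ 2 * (Nat.card G : ℤ) * (((charDegree (θ₁ : G → ℂ) : ℤ) + v θ₁) *
        ((charDegree (θ₂ : G → ℂ) : ℤ) + v θ₂) * ((charDegree (θ : G → ℂ) : ℤ) - 1)) =
      8 * (c : ℤ) ^ 3 * ((charDegree (θ₁ : G → ℂ) : ℤ) * charDegree (θ₂ : G → ℂ) *
        charDegree (θ : G → ℂ)) := by
    intro θ hθ hvθ
    have hθ1 : θ ≠ Blocks.oneChar G := fun h => by rw [h, hvone] at hvθ; norm_num at hvθ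
    obtain ⟨θ₁, θ₂, hne, hE⟩ := Finset.card_eq_two.1
      (show ((S.erase (Blocks.oneChar G)).erase θ).card = 2 by
        rw [Finset.card_erase_of_mem (Finset.mem_erase.2 ⟨hθ1, hθ⟩),
          Finset.card_erase_of_mem honeS, hS4])
    have hm₁ : θ₁ ∈ (S.erase (Blocks.oneChar G)).erase θ := by rw [hE]; simp
    have hm₂ : θ₂ ∈ (S.erase (Blocks.oneChar G)).erase θ := by rw [hE]; simp
    simp only [Finset.mem_erase] at hm₁ hm₂
    have hsplit : ∀ F : IrrCharacter G → ℂ,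
        ∑ ξ ∈ S, F ξ = F (Blocks.oneChar G) + F θ + F θ₁ + F θ₂ := by
      intro F
      rw [← Finset.add_sum_erase _ _ honeS,
        ← Finset.add_sum_erase _ _ (Finset.mem_erase.2 ⟨hθ1, hθ⟩), hE, Finset.sum_pair hne]
      ring
    have hsum := horth 1 (by rw [orderOf_one]; norm_num)
    rw [hsplit, hvone, hvθ, apply_one, apply_one, apply_one, apply_one, hd1] at hsum
    rw [hsplit] at id1
    simp only [hval _ J hJ, hvone, hvθ, apply_one, hd1] at id1
    have hv₁ : (v θ₁ : ℂ) * v θ₁ = 1 := by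
      rcases hsign θ₁ hm₁.2.2 with h | h <;> simp [h]
    have hv₂ : (v θ₂ : ℂ) * v θ₂ = 1 := by
      rcases hsign θ₂ hm₂.2.2 with h | h <;> simp [h]
    set x := charDegree (θ₁ : G → ℂ)
    set y := charDegree (θ₂ : G → ℂ)
    set z := charDegree (θ : G → ℂ)
    refine ⟨θ₁, θ₂, hm₁.2.2, hm₂.2.2, hm₁.2.1, hm₂.2.1, ?_, ?_⟩
    · refine Int.cast_injective (α := ℂ) ?_
      push_cast at hsum ⊢
      linear_combination hsum
    · refine Int.cast_injective (α := ℂ) ?_
      have hx0 : (x : ℂ) ≠ 0 := Nat.cast_ne_zero.2 (Blocks.charDegree_eq θ₁.2).2.ne'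
      have hy0 : (y : ℂ) ≠ 0 := Nat.cast_ne_zero.2 (Blocks.charDegree_eq θ₂.2).2.ne'
      have hz0 : (z : ℂ) ≠ 0 := Nat.cast_ne_zero.2 (Blocks.charDegree_eq θ.2).2.ne'
      push_cast at id1 hsum ⊢
      field_simp at id1
      linear_combination id1 + (cp : ℂ) ^ 2 * (Nat.card G : ℂ) *
        (-(v θ₁ : ℂ) * v θ₂ * hsum + (x : ℂ) * v θ₂ * hv₁ + (y : ℂ) * v θ₁ * hv₂)
  have hζ2 : 2 ≤ charDegree (ζ : G → ℂ) :=
    deg_two_le hna ζ fun h => by rw [h, hvone] at hvζ; norm_num at hvζ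
  have hζ4 : (4 : ℤ) ∣ (charDegree (ζ : G → ℂ) : ℤ) + 1 := by
    have := hmod ζ
    rw [hvζ] at this
    simpa [sub_eq_add_neg] using this
  have hζ15 : charDegree (ζ : G → ℂ) ≤ 15 := by
    have hζ1 : ζ ≠ Blocks.oneChar G := fun h => by rw [h, hvone] at hvζ; norm_num at hvζ
    have h := hnle {Blocks.oneChar G, ζ}
    rw [Finset.sum_pair (Ne.symm hζ1), hn1, hd1, hχ4] at h
    have := Nat.le_mul_of_pos_left (charDegree (ζ : G → ℂ)) hnζ
    omega
  -- primes of the order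
  have hcG : c ∣ Nat.card G := Subgroup.card_subgroup_dvd_card _
  obtain ⟨θ₁, θ₂, h1S, h2S, h1ne, h2ne, hlin, hform⟩ := key ζ hζS hvζ
  have h2θ₁ := deg_two_le hna θ₁ h1ne
  have h2θ₂ := deg_two_le hna θ₂ h2ne
  have hm₁ := hmod θ₁
  have hm₂ := hmod θ₂
  have hd₁ := Blocks.charDegree_dvd θ₁.2
  have hd₂ := Blocks.charDegree_dvd θ₂.2
  have hdζ := Blocks.charDegree_dvd ζ.2
  have hdvdRHS : ∀ l : ℕ, l.Prime → l ≠ 2 →
      (l : ℤ) ∣ ((charDegree (θ₁ : G → ℂ) : ℤ) + v θ₁) *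
        ((charDegree (θ₂ : G → ℂ) : ℤ) + v θ₂) * ((charDegree (ζ : G → ℂ) : ℤ) - 1) →
      l ∣ Nat.card G := by
    intro l hl hl2 hd
    have hl' : Prime (l : ℤ) := Nat.prime_iff_prime_int.1 hl
    have h := hd.mul_left ((cp : ℤ) ^ 2 * (Nat.card G : ℤ))
    rw [hform] at h
    rcases hl'.dvd_or_dvd h with h' | h'
    · rcases hl'.dvd_or_dvd h' with h'' | h''
      · have : l ∣ 8 := by exact_mod_cast h''
        exact absurd ((Nat.prime_dvd_prime_iff_eq hl Nat.prime_two).1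
          (hl.dvd_of_dvd_pow (n := 3) this)) hl2
      · exact (Int.natCast_dvd_natCast.1 (hl'.dvd_of_dvd_pow h'')).trans hcG
    · rcases hl'.dvd_or_dvd h' with h'' | h''
      · rcases hl'.dvd_or_dvd h'' with h3 | h3
        · exact (Int.natCast_dvd_natCast.1 h3).trans hd₁
        · exact (Int.natCast_dvd_natCast.1 h3).trans hd₂
      · exact (Int.natCast_dvd_natCast.1 h'').trans hdζ
  have h3G : 3 ∣ Nat.card G := by
    by_contra h3
    have hnot : ∀ {d : ℕ}, d ∣ Nat.card G → d % 3 ≠ 0 := fun hd h =>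
      h3 ((Nat.dvd_of_mod_eq_zero h).trans hd)
    have := hnot hd₁
    have := hnot hd₂
    have := hnot hdζ
    have h3' : ¬ ((3 : ℕ) : ℤ) ∣ ((charDegree (θ₁ : G → ℂ) : ℤ) + v θ₁) *
        ((charDegree (θ₂ : G → ℂ) : ℤ) + v θ₂) * ((charDegree (ζ : G → ℂ) : ℤ) - 1) :=
      fun h => h3 (hdvdRHS 3 Nat.prime_three (by norm_num) h)
    have ha' : ¬ (3 : ℤ) ∣ (charDegree (θ₁ : G → ℂ) : ℤ) + v θ₁ := fun h =>
      h3' (((show ((3 : ℕ) : ℤ) ∣ _ from h).mul_right _).mul_right _)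
    have hb' : ¬ (3 : ℤ) ∣ (charDegree (θ₂ : G → ℂ) : ℤ) + v θ₂ := fun h =>
      h3' (((show ((3 : ℕ) : ℤ) ∣ _ from h).mul_left _).mul_right _)
    have hc' : ¬ (3 : ℤ) ∣ (charDegree (ζ : G → ℂ) : ℤ) - 1 := fun h =>
      h3' ((show ((3 : ℕ) : ℤ) ∣ _ from h).mul_left _)
    exact false_mod_three (hsign θ₁ h1S) (hsign θ₂ h2S) (by omega) (by omega) (by omega)
      ha' hb' hc' hlin
  obtain ⟨r, i, j, hr, hr3, hij, hG3⟩ : ∃ r i j : ℕ, r.Prime ∧ r ≠ 3 ∧ (i ≤ 2 ∨ j ≤ 2) ∧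
      Nat.card G = 4 * (3 ^ i * r ^ j) := by
    rw [hG, mul_assoc] at h3G
    rcases (Nat.Prime.dvd_mul Nat.prime_three).1 h3G with h | h
    · norm_num at h
    rcases (Nat.Prime.dvd_mul Nat.prime_three).1 h with h' | h'
    · obtain rfl := (Nat.prime_dvd_prime_iff_eq Nat.prime_three hp).1
        (Nat.prime_three.dvd_of_dvd_pow h')
      exact ⟨q, a, b, hq, Ne.symm hpq, Or.inl ha, by rw [hG]; ring⟩
    · obtain rfl := (Nat.prime_dvd_prime_iff_eq Nat.prime_three hq).1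
        (Nat.prime_three.dvd_of_dvd_pow h')
      exact ⟨p, b, a, hp, hpq, Or.inr ha, by rw [hG]; ring⟩
  have honly : ∀ l : ℕ, l.Prime → 5 ≤ l → l ∣ Nat.card G → l = r := by
    intro l hl hl5 hd
    rw [hG3] at hd
    rcases (Nat.Prime.dvd_mul hl).1 hd with h | h
    · have := Nat.le_of_dvd (by norm_num) h
      omega
    · rcases (Nat.Prime.dvd_mul hl).1 h with h' | h'
      · have := Nat.le_of_dvd (by norm_num) (hl.dvd_of_dvd_pow h')
        omega
      · exact (Nat.prime_dvd_prime_iff_eq hl hr).1 (hl.dvd_of_dvd_pow h')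
  have hodd : ∀ θ ∈ S, charDegree (θ : G → ℂ) ∣ 3 ^ i * r ^ j := by
    intro θ hθ
    have hd := Blocks.charDegree_dvd θ.2
    rw [hG3] at hd
    refine (Nat.Coprime.dvd_of_dvd_mul_left ?_ hd)
    have h4 := hmod θ
    have : charDegree (θ : G → ℂ) % 2 = 1 := by
      rcases hsign θ hθ with h | h <;> rw [h] at h4 <;> omega
    rw [show (4 : ℕ) = 2 ^ 2 by norm_num]
    exact (Nat.coprime_two_right.2 (Nat.odd_iff.2 this)).pow_right 2
  obtain ⟨ψ, hψS, hvψ, hψ3⟩ : ∃ θ ∈ S, v θ = -1 ∧ charDegree (θ : G → ℂ) = 3 := by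
    have hcases : charDegree (ζ : G → ℂ) = 3 ∨ charDegree (ζ : G → ℂ) = 7 ∨
        charDegree (ζ : G → ℂ) = 11 ∨ charDegree (ζ : G → ℂ) = 15 := by omega
    rcases hcases with h | h | h | h
    · exact ⟨ζ, hζS, hvζ, h⟩
    · obtain rfl : 7 = r := honly 7 (by norm_num) (by norm_num) (h ▸ hdζ)
      rw [h] at hlin
      rcases hsign θ₁ h1S with h1 | h1 <;> rcases hsign θ₂ h2S with h2 | h2 <;>
        rw [h1] at hlin hm₁ <;> rw [h2] at hlin hm₂
      · omega
      · exact ⟨θ₂, h2S, h2, dioph hij (hodd θ₁ h1S) (hodd θ₂ h2S) (by omega) (by omega)⟩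
      · exact ⟨θ₁, h1S, h1, dioph hij (hodd θ₂ h2S) (hodd θ₁ h1S) (by omega) (by omega)⟩
      · omega
    · exfalso
      have h11 := honly 11 (by norm_num) (by norm_num) (h ▸ hdζ)
      have h5 := honly 5 (by norm_num) le_rfl (hdvdRHS 5 (by norm_num) (by norm_num)
        ((show ((5 : ℕ) : ℤ) ∣ _ by rw [h]; norm_num).mul_left _))
      omega
    · exfalso
      have h5 := honly 5 (by norm_num) le_rfl ((show 5 ∣ 15 by norm_num).trans (h ▸ hdζ))
      have h7 := honly 7 (by norm_num) (by norm_num) (hdvdRHS 7 (by norm_num) (by norm_num)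
        ((show ((7 : ℕ) : ℤ) ∣ _ by rw [h]; norm_num).mul_left _))
      omega
  have hc4 : c = 4 := card_centralizer_four hna P hP hexp hJP hJ ψ hψ3 fun g hg => by
    rw [hsv ψ hψS g hg, hvψ]; norm_num
  have hcp4 : cp = 4 := by
    have h1 : (P : Subgroup G) ≤ Subgroup.centralizer ((P : Subgroup G) : Set G) := fun y hy =>
      Subgroup.mem_centralizer_iff.2 fun w hw => congrArg Subtype.val
        (IsPGroup.commutative_of_card_eq_prime_sq (p := 2)
          (show Nat.card (P : Subgroup G) = 2 ^ 2 by rw [hP]; norm_num) ⟨w, hw⟩ ⟨y, hy⟩)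
    have h2 : Subgroup.centralizer ((P : Subgroup G) : Set G) ≤
        Subgroup.centralizer ({J} : Set G) := fun y hy =>
      Subgroup.mem_centralizer_singleton_iff.2 (Subgroup.mem_centralizer_iff.1 hy J hJP).symm
    have e1 := Subgroup.card_le_of_le h1
    have e2 := Subgroup.card_le_of_le h2
    rw [hP] at e1
    omega
  obtain ⟨ξ₁, ξ₂, k1S, k2S, k1ne, k2ne, klin, kform⟩ := key ψ hψS hvψ
  have k2ξ₁ := deg_two_le hna ξ₁ k1ne
  have k2ξ₂ := deg_two_le hna ξ₂ k2ne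
  have km₁ := hmod ξ₁
  have km₂ := hmod ξ₂
  rw [hc4, hcp4, hψ3, hG0] at kform
  rw [hψ3] at klin
  push_cast at kform
  rw [Nat.odd_iff] at hg₀
  have fin : ∀ y : ℤ, 3 ≤ y → (4 : ℤ) ∣ y + 1 →
      (g₀ : ℤ) * ((y + 3) * (y - 1)) = 12 * (y * (y + 2)) → Nat.card G = 60 := by
    intro y hy hy4 h
    rcases (show y = 3 ∨ 7 ≤ y by omega) with rfl | hy7
    · norm_num at h
      omega
    · exact (final_arith hy7 h).elim
  rcases hsign ξ₁ k1S with h1 | h1 <;> rcases hsign ξ₂ k2S with h2 | h2 <;>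
    rw [h1] at klin km₁ kform <;> rw [h2] at klin km₂ kform
  · omega
  · refine fin (charDegree (ξ₂ : G → ℂ)) (by omega) (by simpa [sub_eq_add_neg] using km₂) ?_
    have e : (charDegree (ξ₁ : G → ℂ) : ℤ) = charDegree (ξ₂ : G → ℂ) + 2 := by omega
    rw [e] at kform
    refine mul_left_cancel₀ (show (128 : ℤ) ≠ 0 by norm_num) ?_
    linear_combination kform
  · refine fin (charDegree (ξ₁ : G → ℂ)) (by omega) (by simpa [sub_eq_add_neg] using km₁) ?_
    have e : (charDegree (ξ₂ : G → ℂ) : ℤ) = charDegree (ξ₁ : G → ℂ) + 2 := by omega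
    rw [e] at kform
    refine mul_left_cancel₀ (show (128 : ℤ) ≠ 0 by norm_num) ?_
    linear_combination kform
  · omega

end Cfsg.Agent.Blocks.ThreePrimeSmall
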