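import Cfsg.Agent.Blocks.ThreePrimeSmall.Tools
import Cfsg.Agent.S4500

/-!
Simple groups of order `3 · 2^a · r^b` with `b ≤ 2`: the three characters not vanishing at an
element of order three, and a count of inverting involutions.
-/

set_option autoImplicit false
set_option linter.style.haveILetI false
set_option linter.unusedSectionVars false

namespace Cfsg.Agent.Blocks.ThreePrimeSmall

open Cfsg Cfsg.Agent
open scoped ComplexConjugate

universe u

variable {G : Type u} [Group G] [Fintype G] [IsSimpleGroup G]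

/-- Elements of order three generate their own centralizers. -/
theorem card_centralizer_three (hna : ¬ IsMulCommutative G) (h9 : ¬ 9 ∣ Nat.card G)
    (ψ : IrrCharacter G) (hψ : charDegree (ψ : G → ℂ) = 3) {x : G} (hx : orderOf x = 3) :
    Nat.card (Subgroup.centralizer ({x} : Set G)) = 3 := by
  classical
  haveI := Fact.mk Nat.prime_three
  set C := Subgroup.centralizer ({x} : Set G) with hC
  have h3 : 3 ∣ Nat.card C := hx ▸ Subgroup.orderOf_dvd_natCard C
    (Subgroup.mem_centralizer_singleton_iff.2 rfl)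
  have hun : ∀ {l : ℕ}, l.Prime → l ∣ Nat.card C → l = 3 := by
    intro l hl hld
    by_contra hne
    haveI := Fact.mk hl
    obtain ⟨⟨w, hwC⟩, hw⟩ := exists_prime_orderOf_dvd_card' (G := C) l hld
    rw [Subgroup.orderOf_mk] at hw
    refine false_of_class hna ψ (by omega) hl hw ?_ ?_
    · rw [hψ, Nat.prime_dvd_prime_iff_eq hl Nat.prime_three]
      exact hne
    · rw [hψ, Nat.Prime.coprime_iff_not_dvd Nat.prime_three]
      intro hi
      have hxw : x ∈ Subgroup.centralizer ({w} : Set G) := Subgroup.mem_centralizer_singleton_iff.2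
        (Subgroup.mem_centralizer_singleton_iff.1 hwC).symm
      have h3w : 3 ∣ Nat.card (Subgroup.centralizer ({w} : Set G)) :=
        hx ▸ Subgroup.orderOf_dvd_natCard _ hxw
      apply h9
      have := Nat.mul_dvd_mul h3w hi
      rwa [Subgroup.card_mul_index] at this
  have hp := Nat.eq_prime_pow_of_unique_prime_dvd (Nat.card_pos (α := C)).ne' hun
  have h9C : ¬ 9 ∣ Nat.card C := fun h => h9 (h.trans C.card_subgroup_dvd_card)
  generalize (Nat.card C).primeFactorsList.length = k at hp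
  rcases k with _ | _ | k
  · rw [hp, pow_zero] at h3; omega
  · simpa using hp
  · exact absurd ⟨3 ^ k, by rw [hp]; ring⟩ h9C

/-- An element of order three is conjugate to its inverse. -/
theorem isConj_inv_three (hna : ¬ IsMulCommutative G) (h9 : ¬ 9 ∣ Nat.card G)
    {x : G} (hx : orderOf x = 3) : IsConj x x⁻¹ := by
  classical
  haveI := Fact.mk Nat.prime_three
  have hQ : IsPGroup 3 (Subgroup.zpowers x) :=
    IsPGroup.of_card (n := 1) (by rw [Nat.card_zpowers, hx, pow_one])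
  obtain ⟨P, hP⟩ := hQ.exists_le_sylow
  have hd3 : 3 ∣ Nat.card G := hx ▸ orderOf_dvd_natCard x
  have hPc : Nat.card P ≤ 3 := by
    obtain ⟨k, hk⟩ := P.2.exists_card_eq
    have hk1 : k ≤ 1 := by
      by_contra h
      exact h9 (((pow_dvd_pow 3 (show 2 ≤ k by omega)).trans (dvd_of_eq hk.symm)).trans
        (P : Subgroup G).card_subgroup_dvd_card)
    rw [hk]
    calc 3 ^ k ≤ 3 ^ 1 := Nat.pow_le_pow_right (by norm_num) hk1
      _ = 3 := by norm_num
  have heq : Subgroup.zpowers x = (P : Subgroup G) :=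
    Subgroup.eq_of_le_of_card_ge hP (by rw [Nat.card_zpowers, hx]; exact hPc)
  obtain ⟨n, hnN, hnC⟩ := SetLike.not_le_iff_exists.1
    (SmallOrder.not_normalizer_le_centralizer hna hd3 P)
  have hmem : n * x * n⁻¹ ∈ Subgroup.zpowers x := by
    rw [heq]
    exact (Subgroup.mem_normalizer_iff.1 hnN x).1 (heq ▸ Subgroup.mem_zpowers x)
  obtain ⟨i, hi, hie⟩ : ∃ i : ℕ, i < 3 ∧ x ^ i = n * x * n⁻¹ := by
    rw [mem_zpowers_iff_mem_range_orderOf, Finset.mem_image] at hmem
    obtain ⟨j, hj, hje⟩ := hmem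
    exact ⟨j, by rw [Finset.mem_range, hx] at hj; exact hj, hje⟩
  have hord : orderOf (n * x * n⁻¹) = 3 :=
    (orderOf_injective (MulAut.conj n).toMonoidHom (MulAut.conj n).injective x).trans hx
  refine isConj_iff.2 ⟨n, ?_⟩
  interval_cases i
  · rw [pow_zero] at hie
    rw [← hie, orderOf_one] at hord
    norm_num at hord
  · exfalso
    apply hnC
    rw [← heq]
    refine Subgroup.mem_centralizer_iff.2 fun y hy => ?_
    obtain ⟨j, rfl⟩ := Subgroup.mem_zpowers_iff.1 hy
    have hc : Commute n x := by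
      show n * x = x * n
      conv_rhs => rw [← pow_one x, hie]
      group
    exact (hc.zpow_right j).symm
  · rw [← hie]
    refine eq_inv_of_mul_eq_one_left ?_
    rw [← pow_succ, show (2 : ℕ) + 1 = orderOf x by rw [hx], pow_orderOf_eq_one]

/-- The value at an element of order three conjugate to its inverse is an integer congruent to
the degree modulo three. -/
theorem value_three (χ : IrrCharacter G) {x : G} (hx : orderOf x = 3) (hinv : IsConj x x⁻¹) :
    ∃ v : ℤ, (χ : G → ℂ) x = (v : ℂ) ∧ (3 : ℤ) ∣ (charDegree (χ : G → ℂ) : ℤ) + 2 * v := by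
  classical
  set W := Subgroup.zpowers x
  obtain ⟨m, hm⟩ := Chars.exists_classInner_eq_nat
    (Chars.isCharacter_restrict (Chars.irr_isCharacter χ) W) (Chars.isCharacter_one (G := W))
  have hW : Nat.card W = 3 := by rw [Nat.card_zpowers, hx]
  rw [Chars.classInner_def, hW] at hm
  simp only [map_one, mul_one] at hm
  rw [TwoPrimeOrder.sum_zpowers (fun g => (χ : G → ℂ) g), hx] at hm
  obtain ⟨c, hc⟩ := isConj_iff.1 hinv
  have hx2 : x ^ 2 = x⁻¹ := eq_inv_of_mul_eq_one_left (by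
    rw [← pow_succ, show (2 : ℕ) + 1 = orderOf x by rw [hx], pow_orderOf_eq_one])
  have hval2 : (χ : G → ℂ) (x ^ 2) = (χ : G → ℂ) x := by
    rw [hx2, ← hc, Chars.isClassFunction_irr χ x c]
  simp only [Finset.sum_range_succ, Finset.sum_range_zero, pow_zero, pow_one, zero_add, hval2,
    apply_one] at hm
  rw [inv_mul_eq_iff_eq_mul₀ (by norm_num : ((3 : ℕ) : ℂ) ≠ 0)] at hm
  push_cast at hm
  set d := charDegree (χ : G → ℂ)
  have h2v : 2 * (χ : G → ℂ) x = ((3 * (m : ℤ) - d : ℤ) : ℂ) := by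
    push_cast
    linear_combination hm
  rcases Int.even_or_odd (3 * (m : ℤ) - d) with ⟨v, hv⟩ | hodd
  · refine ⟨v, mul_left_cancel₀ (two_ne_zero (α := ℂ)) ?_, ⟨m, by omega⟩⟩
    rw [h2v, hv]
    push_cast
    ring
  · exfalso
    have hval : (χ : G → ℂ) x = ((3 * (m : ℤ) - d : ℤ) : ℂ) / 2 := by
      rw [← h2v]; ring
    have hint := Chars.isIntegral_of_isCharacter (Chars.irr_isCharacter χ) x
    rw [hval] at hint
    set k := 3 * (m : ℤ) - d
    have h' : IsIntegral ℤ (((k.natAbs : ℕ) : ℂ) / ((2 : ℕ) : ℂ)) := by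
      have hk : ((k.natAbs : ℕ) : ℂ) = (k : ℂ) ∨ ((k.natAbs : ℕ) : ℂ) = -(k : ℂ) := by
        rcases Int.natAbs_eq k with hh | hh
        · left
          rw [← Int.cast_natCast, ← hh]
        · right
          rw [← Int.cast_natCast, show (k.natAbs : ℤ) = -k by omega, Int.cast_neg]
      rcases hk with hh | hh
      · rw [hh]; exact hint
      · rw [hh, neg_div]; exact hint.neg
    have := Chars.dvd_of_isIntegral_div (by norm_num) h'
    obtain ⟨l, hl⟩ := hodd
    omega

/-- The final arithmetic for the prime five. -/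
theorem arith_five_fin : ∀ a : Fin 9, ∀ N : Fin 4, ∀ e : Fin 8, ∀ b : Fin 3, ∀ i : Fin 3,
    2 ≤ a.val → 1 ≤ b.val → 1 ≤ e.val → 1 ≤ N.val →
      N.val * 2 ^ a.val * (5 ^ i.val) ^ 2 * 20 = 3 * 5 ^ b.val * e.val ^ 2 →
        a.val = 2 ∧ b.val = 1 := by
  decide +kernel

theorem arith_five (a : ℕ) (ha : a < 9) (N : ℕ) (hN : N < 4) (e : ℕ) (he : e < 8) (b : ℕ)
    (hb : b < 3) (i : ℕ) (hi : i < 3) : 2 ≤ a → 1 ≤ b → 1 ≤ e → 1 ≤ N →
      N * 2 ^ a * (5 ^ i) ^ 2 * 20 = 3 * 5 ^ b * e ^ 2 → a = 2 ∧ b = 1 :=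
  arith_five_fin ⟨a, ha⟩ ⟨N, hN⟩ ⟨e, he⟩ ⟨b, hb⟩ ⟨i, hi⟩

/-- The final arithmetic for the prime seven. -/
theorem arith_seven_fin : ∀ a : Fin 9, ∀ N : Fin 4, ∀ e : Fin 14, ∀ b : Fin 3, ∀ i : Fin 3,
    2 ≤ a.val → 1 ≤ b.val → 1 ≤ e.val → 1 ≤ N.val →
      N.val * 2 ^ a.val * (7 ^ i.val) ^ 2 * 56 = 3 * 7 ^ b.val * e.val ^ 2 →
        a.val = 3 ∧ b.val = 1 := by
  decide +kernel

theorem arith_seven (a : ℕ) (ha : a < 9) (N : ℕ) (hN : N < 4) (e : ℕ) (he : e < 14) (b : ℕ)
    (hb : b < 3) (i : ℕ) (hi : i < 3) : 2 ≤ a → 1 ≤ b → 1 ≤ e → 1 ≤ N →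
      N * 2 ^ a * (7 ^ i) ^ 2 * 56 = 3 * 7 ^ b * e ^ 2 → a = 3 ∧ b = 1 :=
  arith_seven_fin ⟨a, ha⟩ ⟨N, hN⟩ ⟨e, he⟩ ⟨b, hb⟩ ⟨i, hi⟩

/-- A simple group of order `3 · 2^a · r^b` with `b ≤ 2` has order `60` or `168`. -/
theorem card_three (hna : ¬ IsMulCommutative G) {r a b : ℕ} (hr : r.Prime) (hr5 : 5 ≤ r)
    (hb : b ≤ 2) (hG : Nat.card G = 3 * 2 ^ a * r ^ b) :
    Nat.card G = 60 ∨ Nat.card G = 168 := by
  classical
  haveI := Fact.mk Nat.prime_three
  haveI : Fact (Nat.Prime 2) := ⟨Nat.prime_two⟩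
  have hr2 : r ≠ 2 := by omega
  have hr3 : r ≠ 3 := by omega
  have h3r : Nat.Coprime 3 (r ^ b) :=
    ((Nat.coprime_primes Nat.prime_three hr).2 (Ne.symm hr3)).pow_right b
  have h2r : Nat.Coprime (2 ^ a) (r ^ b) :=
    ((Nat.coprime_primes Nat.prime_two hr).2 (Ne.symm hr2)).pow a b
  have hb1 : 1 ≤ b := by
    by_contra h
    exact false_of_two_primes hna 1 a Nat.prime_three Nat.prime_two
      (by rw [hG, show b = 0 by omega]; ring)
  have ha1 : 1 ≤ a := by
    by_contra h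
    exact false_of_two_primes hna 1 b Nat.prime_three hr
      (by rw [hG, show a = 0 by omega]; ring)
  have h9 : ¬ 9 ∣ Nat.card G := by
    intro h
    rw [hG, show (9 : ℕ) = 3 * 3 by norm_num, mul_assoc] at h
    have h' := Nat.dvd_of_mul_dvd_mul_left (by norm_num) h
    rcases (Nat.Prime.dvd_mul Nat.prime_three).1 h' with h'' | h''
    · have := Nat.prime_three.dvd_of_dvd_pow h''
      omega
    · have := (Nat.prime_dvd_prime_iff_eq Nat.prime_three hr).1 (Nat.prime_three.dvd_of_dvd_pow h'')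
      omega
  obtain ⟨P⟩ := (inferInstance : Nonempty (Sylow 2 G))
  have hP : Nat.card P = 2 ^ a := by
    rw [Sylow.card_eq_multiplicity, hG,
      Nat.factorization_mul (by positivity) (pow_ne_zero _ hr.ne_zero),
      Nat.factorization_mul (by norm_num) (by positivity)]
    simp [Nat.factorization_pow, Nat.prime_two.factorization_self, hr.factorization,
      Nat.prime_three.factorization, hr2, Ne.symm hr2]
  have h2G : 2 ∣ Nat.card G := by
    rw [hG]
    exact ((dvd_pow_self 2 (by omega)).mul_left 3).mul_right _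
  have ha2 : 2 ≤ a := by
    by_contra h
    refine SmallOrder.not_isCyclic_minFac hna
      (by rw [Nat.minFac_eq_two_iff]; exact h2G) P ?_
    exact isCyclic_of_prime_card (p := 2) (by rw [hP, show a = 1 by omega, pow_one])
  -- a character of degree three
  haveI : Nontrivial G := IsSimpleGroup.toNontrivial
  obtain ⟨ψ, hψ1, k, hk⟩ := (S4500.result (G := G) r 2 3 b a 1 hr Nat.prime_two Nat.prime_three
    hr2 hr3 (by norm_num) hb (by rw [hG]; ring)).2
  have hψne : ψ ≠ Blocks.oneChar G := fun h => hψ1 (by rw [h]; rfl)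
  have hk1 : k = 1 := by
    have hd := Blocks.charDegree_dvd ψ.2
    rw [hk] at hd
    have h2 := deg_two_le hna ψ hψne
    rw [hk] at h2
    rcases k with _ | _ | k
    · norm_num at h2
    · rfl
    · exact absurd ((show 9 ∣ 3 ^ (k + 2) from ⟨3 ^ k, by ring⟩).trans hd) h9
  subst hk1
  rw [pow_one] at hk
  obtain ⟨x, hx⟩ := exists_prime_orderOf_dvd_card' (G := G) 3
    (by rw [hG, mul_assoc]; exact dvd_mul_right _ _)
  have hCx := card_centralizer_three hna h9 ψ hk hx
  have hinv := isConj_inv_three hna h9 hx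
  choose v hv hvd using fun χ : IrrCharacter G => value_three χ hx hinv
  -- the three characters
  have hsq : ∑ χ : IrrCharacter G, v χ * v χ = 3 := by
    refine Int.cast_injective (α := ℂ) ?_
    rw [Int.cast_sum, Int.cast_ofNat]
    have h := Chars.column_orth (G := G) x x
    rw [if_pos (IsConj.refl x), hCx] at h
    simp only [hv, map_intCast] at h
    simpa only [Int.cast_mul, Nat.cast_ofNat] using h
  have hle : ∀ χ, v χ * v χ ≤ 3 := fun χ => by
    rw [← hsq]
    exact Finset.single_le_sum (f := fun χ => v χ * v χ) (fun χ _ => mul_self_nonneg _)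
      (Finset.mem_univ χ)
  have hv1 : ∀ χ, v χ = 0 ∨ v χ = 1 ∨ v χ = -1 := fun χ => by
    have h := hle χ
    have h1 : -1 ≤ v χ ∧ v χ ≤ 1 := by
      constructor <;> nlinarith
    omega
  set S := Finset.univ.filter fun χ : IrrCharacter G => v χ ≠ 0 with hS
  have hS3 : S.card = 3 := by
    have h : ∑ χ : IrrCharacter G, v χ * v χ = (S.card : ℤ) := by
      rw [hS, ← Finset.sum_boole]
      refine Finset.sum_congr rfl fun χ _ => ?_
      rcases hv1 χ with h | h | h <;> simp [h]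
    omega
  have hvone : v (Blocks.oneChar G) = 1 := by
    have h := hv (Blocks.oneChar G)
    simp only [Blocks.coe_oneChar] at h
    exact_mod_cast h.symm
  have hvψ : v ψ = 0 := by
    have h := hvd ψ
    rw [hk] at h
    rcases hv1 ψ with h' | h' | h' <;> omega
  have hrel : ∀ y : G, ¬ IsConj y x → ∑ χ ∈ S, (v χ : ℂ) * (χ : G → ℂ) y = 0 := by
    intro y hy
    have h := Chars.column_orth (G := G) y x
    rw [if_neg hy] at h
    rw [← h, hS, Finset.sum_filter]
    refine Finset.sum_congr rfl fun χ _ => ?_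
    rw [hv, map_intCast]
    split_ifs with h0
    · rw [mul_comm]
    · rw [not_not.1 h0, Int.cast_zero, mul_zero]
  obtain ⟨n, hn, hn1, hnle⟩ := exists_mult ψ
  have hnrel : ∑ χ ∈ S, v χ * (n χ : ℤ) = 0 := by
    refine Int.cast_injective (α := ℂ) ?_
    push_cast
    simp only [← hn, Chars.classInner_def, Finset.mul_sum]
    rw [Finset.sum_comm]
    refine Finset.sum_eq_zero fun y _ => ?_
    by_cases hy : IsConj y x
    · obtain ⟨c, hc⟩ := isConj_iff.1 hy.symm
      have : (ψ : G → ℂ) y = 0 := by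
        rw [← hc, Chars.isClassFunction_irr ψ x c, hv, hvψ, Int.cast_zero]
      simp [this]
    · have h := congrArg conj (hrel y hy)
      simp only [map_sum, map_mul, map_intCast, map_zero] at h
      calc _ = (Nat.card G : ℂ)⁻¹ * ((ψ : G → ℂ) y * conj ((ψ : G → ℂ) y)) *
            ∑ χ ∈ S, (v χ : ℂ) * conj ((χ : G → ℂ) y) := by
            rw [Finset.mul_sum]
            exact Finset.sum_congr rfl fun χ _ => by ring
        _ = 0 := by rw [h, mul_zero]
  have hone : Blocks.oneChar G ∈ S := Finset.mem_filter.2 ⟨Finset.mem_univ _, by rw [hvone]; simp⟩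
  obtain ⟨c₂, hc₂S, hv₂, hn₂⟩ : ∃ χ ∈ S, v χ = -1 ∧ 1 ≤ n χ := by
    by_contra hcon
    push Not at hcon
    have hpos : ∀ χ ∈ S, 0 ≤ v χ * (n χ : ℤ) := fun χ hχ => by
      rcases hv1 χ with h | h | h
      · simp [h]
      · simp [h]
      · have := hcon χ hχ h
        rw [show n χ = 0 by omega]; simp
    have h1 := Finset.single_le_sum (f := fun χ => v χ * (n χ : ℤ)) hpos hone
    simp only [hnrel, hvone, hn1] at h1
    norm_num at h1
  have hc₂one : c₂ ≠ Blocks.oneChar G := fun h => by rw [h, hvone] at hv₂; norm_num at hv₂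
  obtain ⟨c₁, hc₁⟩ := Finset.card_eq_one.1 (show ((S.erase (Blocks.oneChar G)).erase c₂).card = 1 by
    rw [Finset.card_erase_of_mem (Finset.mem_erase.2 ⟨hc₂one, hc₂S⟩),
      Finset.card_erase_of_mem hone, hS3])
  have hc₁m : c₁ ∈ (S.erase (Blocks.oneChar G)).erase c₂ := hc₁ ▸ Finset.mem_singleton_self c₁
  simp only [Finset.mem_erase] at hc₁m
  obtain ⟨hc₁₂, hc₁one, hc₁S⟩ := hc₁m
  have hsplit : ∀ F : IrrCharacter G → ℂ,
      ∑ χ ∈ S, F χ = F (Blocks.oneChar G) + F c₁ + F c₂ := by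
    intro F
    rw [← Finset.add_sum_erase _ _ hone,
      ← Finset.add_sum_erase _ _ (Finset.mem_erase.2 ⟨hc₂one, hc₂S⟩), hc₁, Finset.sum_singleton]
    ring
  set d₁ := charDegree (c₁ : G → ℂ) with hd₁
  set d₂ := charDegree (c₂ : G → ℂ) with hd₂
  have hd₁2 : 2 ≤ d₁ := deg_two_le hna c₁ hc₁one
  have hd₂2 : 2 ≤ d₂ := deg_two_le hna c₂ hc₂one
  have hd₂8 : d₂ ≤ 8 := by
    have h := hnle {Blocks.oneChar G, c₂}
    rw [Finset.sum_pair (Ne.symm hc₂one), hn1, hk, ← hd₂] at h
    have h1 : charDegree ((Blocks.oneChar G : IrrCharacter G) : G → ℂ) = 1 := by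
      simp [charDegree, Blocks.coe_oneChar]
    rw [h1] at h
    have := Nat.le_mul_of_pos_left d₂ hn₂
    omega
  have hdeg : (1 : ℤ) + v c₁ * d₁ - d₂ = 0 := by
    refine Int.cast_injective (α := ℂ) ?_
    have h := hrel 1 (fun hc => by
      have := isConj_one_right.1 hc
      rw [this, orderOf_one] at hx
      norm_num at hx)
    rw [hsplit, hvone, hv₂, apply_one, apply_one, apply_one] at h
    have h1 : charDegree ((Blocks.oneChar G : IrrCharacter G) : G → ℂ) = 1 := by
      simp [charDegree, Blocks.coe_oneChar]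
    rw [h1] at h
    push_cast at h ⊢
    linear_combination h
  have hv₁ : v c₁ = 1 := by
    rcases hv1 c₁ with h | h | h
    · exact absurd h (Finset.mem_filter.1 hc₁S).2
    · exact h
    · rw [h] at hdeg; omega
  rw [hv₁] at hdeg
  have hmod₂ : (3 : ℤ) ∣ (d₂ : ℤ) - 2 := by
    have := hvd c₂
    rw [hv₂] at this
    simpa [sub_eq_add_neg] using this
  have hcases : (d₁ = 4 ∧ d₂ = 5) ∨ (d₁ = 7 ∧ d₂ = 8) := by omega
  -- the central involution
  obtain ⟨t, htP, ht, htc⟩ : ∃ t ∈ (P : Subgroup G), orderOf t = 2 ∧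
      ∀ y ∈ (P : Subgroup G), y * t = t * y := by
    haveI : Nontrivial P := by
      rw [← Finite.one_lt_card_iff_nontrivial, hP]
      exact Nat.one_lt_two_pow (by omega)
    haveI := P.2.center_nontrivial
    obtain ⟨j, hj⟩ := (P.2.to_subgroup (Subgroup.center P)).exists_card_eq
    have hj0 : j ≠ 0 := fun h => by
      rw [h, pow_zero] at hj
      have := Finite.one_lt_card (α := Subgroup.center P)
      omega
    obtain ⟨⟨⟨t, htP⟩, htz⟩, ht⟩ := exists_prime_orderOf_dvd_card' (G := Subgroup.center P) 2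
      (by rw [hj]; exact dvd_pow_self 2 hj0)
    rw [Subgroup.orderOf_mk, Subgroup.orderOf_mk] at ht
    exact ⟨t, htP, ht, fun y hy =>
      congrArg Subtype.val (Subgroup.mem_center_iff.1 htz ⟨y, hy⟩)⟩
  set C := Subgroup.centralizer ({t} : Set G) with hC
  have hPC : (P : Subgroup G) ≤ C := fun y hy =>
    Subgroup.mem_centralizer_singleton_iff.2 (htc y hy)
  have hnt3 : ¬ 3 ∣ Nat.card C := by
    intro h
    obtain ⟨⟨y, hyC⟩, hy⟩ := exists_prime_orderOf_dvd_card' (G := C) 3 h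
    rw [Subgroup.orderOf_mk] at hy
    have h2 := Subgroup.orderOf_dvd_natCard (Subgroup.centralizer ({y} : Set G))
      (Subgroup.mem_centralizer_singleton_iff.2
        (Subgroup.mem_centralizer_singleton_iff.1 hyC).symm : t ∈ _)
    rw [card_centralizer_three hna h9 ψ hk hy, ht] at h2
    omega
  obtain ⟨i, hi, hcard⟩ : ∃ i, i ≤ b ∧ Nat.card C = 2 ^ a * r ^ i := by
    have h1 : 2 ^ a ∣ Nat.card C := hP ▸ Subgroup.card_dvd_of_le hPC
    obtain ⟨k, hk'⟩ := h1
    have h2 : Nat.card C ∣ 3 * 2 ^ a * r ^ b := hG ▸ C.card_subgroup_dvd_card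
    rw [hk', show 3 * 2 ^ a * r ^ b = 2 ^ a * (3 * r ^ b) by ring] at h2
    have h3 := Nat.dvd_of_mul_dvd_mul_left (by positivity) h2
    have h4 : Nat.Coprime k 3 := (Nat.prime_three.coprime_iff_not_dvd.2 fun h =>
      hnt3 (hk' ▸ h.mul_left _)).symm
    obtain ⟨i, hi, rfl⟩ := (Nat.dvd_prime_pow hr).1 (h4.dvd_of_dvd_mul_left h3)
    exact ⟨i, hi, hk'⟩
  have htx : ¬ IsConj t x := fun h => by
    obtain ⟨c, hc⟩ := isConj_iff.1 h
    rw [← hc, show orderOf (c * t * c⁻¹) = orderOf t from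
      orderOf_injective (MulAut.conj c).toMonoidHom (MulAut.conj c).injective t, ht] at hx
    omega
  have ht2 : t ^ 2 = 1 := by rw [← ht, pow_orderOf_eq_one]
  obtain ⟨s, hs⟩ := Chars2.int_value_involution c₁ ht2
  obtain ⟨s₂, hs₂⟩ := Chars2.int_value_involution c₂ ht2
  have hs12 : s₂ = s + 1 := by
    refine Int.cast_injective (α := ℂ) ?_
    have h := hrel t htx
    rw [hsplit, hvone, hv₁, hv₂, hs, hs₂] at h
    simp only [Blocks.coe_oneChar] at h
    push_cast at h ⊢
    linear_combination -h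
  have hslt := int_value_lt hna c₁ hd₁2 (t := t) (fun h => by rw [h, orderOf_one] at ht; norm_num at ht) hs
  -- the inverting involutions
  set T := Finset.univ.filter fun y => IsConj t y ∧ IsConj t (y * x) with hT
  have hinvT : ∀ y ∈ T, y * y = 1 ∧ y * x * (y * x) = 1 := by
    intro y hy
    obtain ⟨-, hy1, hy2⟩ := Finset.mem_filter.1 hy
    have key : ∀ w : G, IsConj t w → w * w = 1 := fun w hw => by
      obtain ⟨c, rfl⟩ := isConj_iff.1 hw
      calc c * t * c⁻¹ * (c * t * c⁻¹) = c * t ^ 2 * c⁻¹ := by rw [pow_two]; group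
        _ = 1 := by rw [ht2]; group
    exact ⟨key y hy1, key _ hy2⟩
  have hT3 : T.card ≤ 3 := by
    rcases T.eq_empty_or_nonempty with h | ⟨y₀, hy₀⟩
    · simp [h]
    letI : Fintype (Subgroup.centralizer ({x} : Set G)) := Fintype.ofFinite _
    rw [← hCx, Nat.card_eq_fintype_card, ← Finset.card_univ]
    have key : ∀ y ∈ T, y * x = x⁻¹ * y := fun y hy => by
      obtain ⟨h1, h2⟩ := hinvT y hy
      calc y * x = (y * x)⁻¹ := (inv_eq_of_mul_eq_one_right h2).symm
        _ = x⁻¹ * y⁻¹ := mul_inv_rev _ _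
        _ = x⁻¹ * y := by rw [inv_eq_of_mul_eq_one_right h1]
    refine Finset.card_le_card_of_injOn
      (fun y => if hy : y₀ * y ∈ Subgroup.centralizer ({x} : Set G) then ⟨y₀ * y, hy⟩ else 1)
      (fun _ _ => Finset.mem_univ _) ?_
    have hmem : ∀ y ∈ T, y₀ * y ∈ Subgroup.centralizer ({x} : Set G) := fun y hy => by
      rw [Subgroup.mem_centralizer_singleton_iff]
      have h0 : y₀ * x⁻¹ = x * y₀ := by
        calc y₀ * x⁻¹ = x * (x⁻¹ * y₀) * x⁻¹ := by group
          _ = x * y₀ := by rw [← key y₀ hy₀]; group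
      calc y₀ * y * x = y₀ * x⁻¹ * y := by rw [mul_assoc, key y hy, ← mul_assoc]
        _ = x * (y₀ * y) := by rw [h0, mul_assoc]
    intro y hy y' hy' he
    simp only [Finset.mem_coe] at hy hy'
    simp only [dif_pos (hmem y hy), dif_pos (hmem y' hy'), Subtype.mk.injEq] at he
    exact mul_left_cancel he
  -- the count
  have hcount : (Nat.card C : ℂ) * (T.card : ℂ) = (C.index : ℂ) *
      ∑ χ : IrrCharacter G,
        (χ : G → ℂ) t * (χ : G → ℂ) x * conj ((χ : G → ℂ) t) / (χ : G → ℂ) 1 := by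
    convert TwoPrimeOrder.translate_count t t x
  have hsum : ∑ χ : IrrCharacter G,
      (χ : G → ℂ) t * (χ : G → ℂ) x * conj ((χ : G → ℂ) t) / (χ : G → ℂ) 1 =
      1 + (s : ℂ) ^ 2 / d₁ - ((s : ℂ) + 1) ^ 2 / d₂ := by
    rw [← Finset.sum_subset (Finset.subset_univ S) (fun χ _ hχ => ?_), hsplit]
    · simp only [hs, hs₂, hs12, hv, hvone, hv₁, hv₂, map_intCast, apply_one, Blocks.coe_oneChar,
        map_one, ← hd₁, ← hd₂]
      have h1 : charDegree (fun _ : G => (1 : ℂ)) = 1 := by simp [charDegree]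
      simp only [h1]
      push_cast
      ring
    · have h0 : v χ = 0 := by
        by_contra h0
        exact hχ (Finset.mem_filter.2 ⟨Finset.mem_univ _, h0⟩)
      rw [hv, h0, Int.cast_zero, mul_zero, zero_mul, zero_div]
  rw [hsum] at hcount
  have hd₁0 : (d₁ : ℂ) ≠ 0 := Nat.cast_ne_zero.2 (by omega)
  have hd₂0 : (d₂ : ℂ) ≠ 0 := Nat.cast_ne_zero.2 (by omega)
  have hidx : (Nat.card C : ℂ) * (C.index : ℂ) = (Nat.card G : ℂ) := by
    rw [← C.card_mul_index]; push_cast; rfl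
  have hZ : ((Nat.card C : ℤ)) ^ 2 * (T.card : ℤ) * d₁ * d₂ =
      (Nat.card G : ℤ) * ((d₁ : ℤ) - s) ^ 2 := by
    refine Int.cast_injective (α := ℂ) ?_
    have hd21 : (d₂ : ℂ) = (d₁ : ℂ) + 1 := by
      have : (d₂ : ℤ) = d₁ + 1 := by omega
      exact_mod_cast this
    have h2 : (Nat.card C : ℂ) * ((Nat.card C : ℂ) * (T.card : ℂ)) =
        (Nat.card G : ℂ) * (1 + (s : ℂ) ^ 2 / d₁ - ((s : ℂ) + 1) ^ 2 / d₂) := by
      rw [hcount, ← hidx]; ring
    push_cast
    calc (Nat.card C : ℂ) ^ 2 * (T.card : ℂ) * d₁ * d₂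
        = (Nat.card C : ℂ) * ((Nat.card C : ℂ) * (T.card : ℂ)) * (d₁ * d₂) := by ring
      _ = (Nat.card G : ℂ) * ((1 + (s : ℂ) ^ 2 / d₁ - ((s : ℂ) + 1) ^ 2 / d₂) * (d₁ * d₂)) := by
        rw [h2]; ring
      _ = (Nat.card G : ℂ) * ((d₁ : ℂ) - s) ^ 2 := by
        congr 1
        rw [sub_mul, add_mul, div_mul_eq_mul_div, div_mul_eq_mul_div, hd21]
        rw [hd21] at hd₂0
        field_simp
        ring
  obtain ⟨e, he⟩ : ∃ e : ℕ, (d₁ : ℤ) - s = e := ⟨((d₁ : ℤ) - s).toNat, by omega⟩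
  have he1 : 1 ≤ e := by omega
  have he2 : e < 2 * d₁ := by omega
  rw [he] at hZ
  have hN : (Nat.card C) ^ 2 * T.card * d₁ * d₂ = Nat.card G * e ^ 2 := by exact_mod_cast hZ
  rw [hcard, hG] at hN
  have hN' : T.card * 2 ^ a * (r ^ i) ^ 2 * (d₁ * d₂) = 3 * r ^ b * e ^ 2 := by
    refine Nat.eq_of_mul_eq_mul_left (show 0 < 2 ^ a by positivity) ?_
    linarith
  have hT1 : 1 ≤ T.card := by
    rcases Nat.eq_zero_or_pos T.card with h | h
    · rw [h, zero_mul, zero_mul, zero_mul] at hN'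
      exfalso
      exact absurd hN'.symm (by positivity)
    · exact h
  have hdvd : ∀ d ∈ [d₁, d₂], d ∣ 3 * 2 ^ a * r ^ b := by
    intro d hd
    simp only [List.mem_cons, List.not_mem_nil, or_false] at hd
    rcases hd with rfl | rfl
    · exact hG ▸ Blocks.charDegree_dvd c₁.2
    · exact hG ▸ Blocks.charDegree_dvd c₂.2
  have hrd : ∀ q : ℕ, q.Prime → 5 ≤ q → ∀ d ∈ [d₁, d₂], q ∣ d → r = q := by
    intro q hq hq5 d hd hqd
    have h := hqd.trans (hdvd d hd)
    rcases (Nat.Prime.dvd_mul hq).1 h with h' | h'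
    · rcases (Nat.Prime.dvd_mul hq).1 h' with h'' | h''
      · have := Nat.le_of_dvd (by norm_num) h''
        omega
      · have := Nat.le_of_dvd (by norm_num) (hq.dvd_of_dvd_pow h'')
        omega
    · exact ((Nat.prime_dvd_prime_iff_eq hq hr).1 (hq.dvd_of_dvd_pow h')).symm
  have hbound : 2 ^ a * (d₁ * d₂) ≤ 3 * r ^ 2 * e ^ 2 := by
    calc 2 ^ a * (d₁ * d₂) ≤ T.card * 2 ^ a * (r ^ i) ^ 2 * (d₁ * d₂) := by
          refine Nat.mul_le_mul_right _ ?_
          calc 2 ^ a = 1 * 2 ^ a * 1 := by ring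
            _ ≤ T.card * 2 ^ a * (r ^ i) ^ 2 :=
              Nat.mul_le_mul (Nat.mul_le_mul_right _ hT1) (Nat.one_le_pow _ _ (pow_pos hr.pos _))
      _ = 3 * r ^ b * e ^ 2 := hN'
      _ ≤ 3 * r ^ 2 * e ^ 2 := Nat.mul_le_mul_right _ (Nat.mul_le_mul_left _
          (Nat.pow_le_pow_right hr.pos hb))
  have he3 : e ^ 2 ≤ (2 * d₁ - 1) ^ 2 := Nat.pow_le_pow_left (by omega) 2
  rcases hcases with ⟨h1, h2⟩ | ⟨h1, h2⟩
  · obtain rfl : r = 5 := hrd 5 (by norm_num) le_rfl d₂ (by simp) (h2 ▸ dvd_rfl)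
    rw [h1, h2] at hN' hbound
    rw [h1] at he3
    have ha9 : a < 9 := by
      by_contra h
      have := Nat.pow_le_pow_right (show 0 < 2 by norm_num) (show 9 ≤ a by omega)
      omega
    obtain ⟨rfl, rfl⟩ := arith_five a ha9 T.card (by omega) e (by omega) b (by omega) i
      (by omega) ha2 hb1 he1 hT1 (by simpa using hN')
    exact Or.inl (by rw [hG]; norm_num)
  · obtain rfl : r = 7 := hrd 7 (by norm_num) (by norm_num) d₁ (by simp) (h1 ▸ dvd_rfl)
    rw [h1, h2] at hN' hbound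
    rw [h1] at he3
    have ha9 : a < 9 := by
      by_contra h
      have := Nat.pow_le_pow_right (show 0 < 2 by norm_num) (show 9 ≤ a by omega)
      omega
    obtain ⟨rfl, rfl⟩ := arith_seven a ha9 T.card (by omega) e (by omega) b (by omega) i
      (by omega) ha2 hb1 he1 hT1 (by simpa using hN')
    exact Or.inr (by rw [hG]; norm_num)

end Cfsg.Agent.Blocks.ThreePrimeSmall
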