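import Cfsg.Agent.Blocks.TwoPrimeOrder.Tools
import Cfsg.Agent.Chars.SimpleDegreeTools
import Cfsg.Agent.Chars2.KleinBlock
import Cfsg.Agent.SmallOrder.Basic
import Cfsg.Agent.S4558
import Cfsg.Agent.S0144

/-!
Small helpers for simple groups of order `3 p^a q^b` and `4 p^a q^b`.
-/

set_option autoImplicit false
set_option linter.style.haveILetI false
set_option linter.unusedSectionVars false

namespace Cfsg.Agent.Blocks.ThreePrimeSmall

open Cfsg Cfsg.Agent
open scoped ComplexConjugate

universe u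

variable {G : Type u} [Group G] [Fintype G] [IsSimpleGroup G]

/-- A non-abelian simple group has more than two prime divisors. -/
theorem false_of_two_primes (hna : ¬ IsMulCommutative G) {p q : ℕ} (a b : ℕ) (hp : p.Prime)
    (hq : q.Prime) (h : Nat.card G = p ^ a * q ^ b) : False := by
  haveI := S0144.result p q a b hp hq h
  exact hna ⟨⟨IsSimpleGroup.comm_iff_isSolvable.2 inferInstance⟩⟩

/-- The degree as a natural number. -/
theorem apply_one (χ : IrrCharacter G) :
    (χ : G → ℂ) 1 = (charDegree (χ : G → ℂ) : ℂ) := (Blocks.charDegree_eq χ.2).1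

/-- A non-trivial character is not linear. -/
theorem deg_two_le (hna : ¬ IsMulCommutative G) (χ : IrrCharacter G)
    (hχ : χ ≠ Blocks.oneChar G) : 2 ≤ charDegree (χ : G → ℂ) := by
  by_contra h
  have h1 : charDegree (χ : G → ℂ) = 1 := by
    have := (Blocks.charDegree_eq χ.2).2
    omega
  refine hχ (Subtype.ext (Chars.SimpleDeg.eq_one_of_degree_one
    (fun hc => hna ⟨⟨hc⟩⟩) ?_))
  rw [apply_one, h1, Nat.cast_one]

/-- An element other than the identity is not a scalar. -/
theorem eq_one_of_norm (hna : ¬ IsMulCommutative G) (χ : IrrCharacter G)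
    (h2 : 2 ≤ charDegree (χ : G → ℂ)) {g : G}
    (hg : ‖(χ : G → ℂ) g‖ = (charDegree (χ : G → ℂ) : ℝ)) : g = 1 := by
  refine Chars.SimpleDeg.eq_one_of_norm_eq (fun hc => hna ⟨⟨hc⟩⟩) (χ := χ) ?_ ?_
  · rw [apply_one]
    exact_mod_cast (show charDegree (χ : G → ℂ) ≠ 1 by omega)
  · rw [hg, apply_one, Complex.natCast_re]

/-- The integer value at an involution is smaller than the degree. -/
theorem int_value_lt (hna : ¬ IsMulCommutative G) (χ : IrrCharacter G)
    (h2 : 2 ≤ charDegree (χ : G → ℂ)) {t : G} (ht : t ≠ 1) {s : ℤ}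
    (hs : (χ : G → ℂ) t = (s : ℂ)) :
    -(charDegree (χ : G → ℂ) : ℤ) < s ∧ s < charDegree (χ : G → ℂ) := by
  have hle := Chars.norm_le_of_isCharacter (Chars.irr_isCharacter χ) t
  have hne : ‖(χ : G → ℂ) t‖ ≠ (charDegree (χ : G → ℂ) : ℝ) :=
    fun h => ht (eq_one_of_norm hna χ h2 h)
  rw [apply_one, Complex.natCast_re] at hle
  have hlt : ‖(χ : G → ℂ) t‖ < (charDegree (χ : G → ℂ) : ℝ) := lt_of_le_of_ne hle hne
  rw [hs, Complex.norm_intCast, ← Int.cast_abs, ← Int.cast_natCast, Int.cast_lt, abs_lt] at hlt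
  exact hlt

/-- A prime order element whose class size is prime to the degree is trivial when the degree is
prime to the order of the element. -/
theorem false_of_class (hna : ¬ IsMulCommutative G) (χ : IrrCharacter G)
    (h2 : 2 ≤ charDegree (χ : G → ℂ)) {w : G} {l : ℕ} (hl : l.Prime) (hw : orderOf w = l)
    (hld : ¬ l ∣ charDegree (χ : G → ℂ))
    (hcop : Nat.Coprime (charDegree (χ : G → ℂ))
      (Subgroup.centralizer ({w} : Set G)).index) : False := by
  haveI := Fact.mk hl
  have h0 : (χ : G → ℂ) w ≠ 0 := fun h =>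
    hld (S4558.result l _ (Chars.irr_isCharacter χ) w ⟨1, by rw [hw, pow_one]⟩ h)
  obtain ⟨n, ρ, hi, hρ⟩ := χ.2
  haveI := hi
  have hd : Module.finrank ℂ (Fin n → ℂ) = charDegree (χ : G → ℂ) := by
    have h := apply_one χ
    rw [← hρ, Representation.char_one] at h
    rw [← hρ]
    exact_mod_cast h
  have hn := FGS2.norm_char_eq_of_coprime ρ w (by rw [hρ]; exact h0) (by rw [hd]; exact hcop)
  rw [hρ, hd] at hn
  have := eq_one_of_norm hna χ h2 hn
  rw [this, orderOf_one] at hw
  exact hl.ne_one hw.symm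

/-- Multiplicities in `χ χ̄`. -/
theorem exists_mult (χ : IrrCharacter G) :
    ∃ n : IrrCharacter G → ℕ,
      (∀ θ : IrrCharacter G,
        classInner (fun g => (χ : G → ℂ) g * conj ((χ : G → ℂ) g)) (θ : G → ℂ) = n θ) ∧
      n (Blocks.oneChar G) = 1 ∧
      ∀ s : Finset (IrrCharacter G),
        ∑ θ ∈ s, n θ * charDegree (θ : G → ℂ) ≤ charDegree (χ : G → ℂ) ^ 2 := by
  classical
  have hc := Chars.irr_isCharacter χ
  have hf : IsCharacter G (fun g => (χ : G → ℂ) g * conj ((χ : G → ℂ) g)) :=
    Chars.isCharacter_mul hc (Chars.isCharacter_star hc)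
  choose n hn using fun θ : IrrCharacter G =>
    Chars.exists_classInner_eq_nat hf (Chars.irr_isCharacter θ)
  refine ⟨n, hn, ?_, fun s => ?_⟩
  · have h := hn (Blocks.oneChar G)
    have h1 := Chars.classInner_self_irr χ.2
    rw [Chars.classInner_def] at h h1
    simp only [Blocks.coe_oneChar, map_one, mul_one] at h
    rw [h1] at h
    exact_mod_cast h.symm
  · have hcf : IsClassFunction G (fun g => (χ : G → ℂ) g * conj ((χ : G → ℂ) g)) := fun g c => by
      simp only [Chars.isClassFunction_irr χ g c]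
    have h := congrFun (Chars.eq_sum_classInner hcf) 1
    simp only [Finset.sum_apply, Pi.smul_apply, hn, smul_eq_mul, apply_one, map_natCast] at h
    have h' : charDegree (χ : G → ℂ) * charDegree (χ : G → ℂ) =
        ∑ θ : IrrCharacter G, n θ * charDegree (θ : G → ℂ) := by exact_mod_cast h
    rw [sq, h']
    exact Finset.sum_le_sum_of_subset (Finset.subset_univ s)

end Cfsg.Agent.Blocks.ThreePrimeSmall
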